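import Mathlib

/-!
# Left-normed commutator values

Basic facts on the set `Val G k` of left-normed commutator values with `k + 1` entries, and the
iterated commutators with a fixed element.
-/

set_option autoImplicit false

namespace Cfsg.Agent.Lib.BW

open Subgroup
open scoped commutatorElement

universe u v

variable {G : Type u} [Group G] {H : Type v} [Group H]

/-- The left-normed commutator values with `k + 1` entries. -/
def Val (G : Type u) [Group G] : ℕ → Set G
  | 0 => Set.univ
  | k + 1 => {x | ∃ y ∈ Val G k, ∃ g : G, x = ⁅y, g⁆}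

@[simp] theorem mem_val_zero (x : G) : x ∈ Val G 0 := Set.mem_univ x

theorem mem_val_succ {k : ℕ} {x : G} : x ∈ Val G (k + 1) ↔ ∃ y ∈ Val G k, ∃ g : G, x = ⁅y, g⁆ :=
  Iff.rfl

theorem comm_mem_val {k : ℕ} {y : G} (hy : y ∈ Val G k) (g : G) : ⁅y, g⁆ ∈ Val G (k + 1) :=
  ⟨y, hy, g, rfl⟩

theorem val_succ_subset (k : ℕ) : Val G (k + 1) ⊆ Val G k := by
  induction k with
  | zero => intro x _; exact Set.mem_univ x
  | succ k ih =>
    rintro x ⟨y, hy, g, rfl⟩
    exact ⟨y, ih hy, g, rfl⟩

theorem val_anti {j k : ℕ} (h : j ≤ k) : Val G k ⊆ Val G j := by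
  induction k, h using Nat.le_induction with
  | base => exact subset_rfl
  | succ k _ ih => exact (val_succ_subset k).trans ih

theorem val_map (f : G →* H) {k : ℕ} {x : G} (hx : x ∈ Val G k) : f x ∈ Val H k := by
  induction k generalizing x with
  | zero => exact Set.mem_univ _
  | succ k ih =>
    obtain ⟨y, hy, g, rfl⟩ := hx
    exact ⟨f y, ih hy, f g, by simp [map_commutatorElement]⟩

/-- Values lift along a surjection. -/
theorem val_lift (f : G →* H) (hf : Function.Surjective f) {k : ℕ} {x : H} (hx : x ∈ Val H k) :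
    ∃ x' ∈ Val G k, f x' = x := by
  induction k generalizing x with
  | zero =>
    obtain ⟨x', rfl⟩ := hf x
    exact ⟨x', Set.mem_univ _, rfl⟩
  | succ k ih =>
    obtain ⟨y, hy, g, rfl⟩ := hx
    obtain ⟨y', hy', rfl⟩ := ih hy
    obtain ⟨g', rfl⟩ := hf g
    exact ⟨⁅y', g'⁆, comm_mem_val hy' g', by simp [map_commutatorElement]⟩

theorem val_conj {k : ℕ} {x : G} (hx : x ∈ Val G k) (g : G) : g * x * g⁻¹ ∈ Val G k :=
  val_map (MulAut.conj g).toMonoidHom hx

theorem val_mem_lcs {k : ℕ} {x : G} (hx : x ∈ Val G k) :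
    x ∈ (⊤ : Subgroup G).lowerCentralSeries k := by
  induction k generalizing x with
  | zero => exact Subgroup.mem_top x
  | succ k ih =>
    obtain ⟨y, hy, g, rfl⟩ := hx
    exact Subgroup.commutator_mem_commutator (ih hy) (Subgroup.mem_top g)

/-- A closure of a conjugation-invariant set is normal. -/
theorem normal_closure_of_conj {s : Set G} (hs : ∀ x ∈ s, ∀ g : G, g * x * g⁻¹ ∈ s) :
    (closure s).Normal := by
  refine ⟨fun n hn g => ?_⟩
  induction hn using Subgroup.closure_induction with
  | mem x hx => exact subset_closure (hs x hx g)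
  | one => simp
  | mul x y _ _ hx hy =>
    have : g * (x * y) * g⁻¹ = (g * x * g⁻¹) * (g * y * g⁻¹) := by group
    rw [this]; exact mul_mem hx hy
  | inv x _ hx =>
    have : g * x⁻¹ * g⁻¹ = (g * x * g⁻¹)⁻¹ := by group
    rw [this]; exact inv_mem hx

theorem closure_val_normal (k : ℕ) : (closure (Val G k)).Normal :=
  normal_closure_of_conj fun _ hx g => val_conj hx g

theorem comm_closure_mem {k : ℕ} {a : G} (ha : a ∈ closure (Val G k)) (g : G) :
    ⁅a, g⁆ ∈ closure (Val G (k + 1)) := by
  have hN := closure_val_normal (G := G) (k + 1)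
  induction ha using Subgroup.closure_induction with
  | mem x hx => exact subset_closure (comm_mem_val hx g)
  | one => simp
  | mul x y _ _ hx hy =>
    have e : ⁅x * y, g⁆ = (x * ⁅y, g⁆ * x⁻¹) * ⁅x, g⁆ := by
      simp only [commutatorElement_def]; group
    rw [e]
    exact mul_mem (hN.conj_mem _ hy x) hx
  | inv x _ hx =>
    have e : ⁅x⁻¹, g⁆ = x⁻¹ * ⁅x, g⁆⁻¹ * x⁻¹⁻¹ := by
      simp only [commutatorElement_def]; group
    rw [e]
    exact hN.conj_mem _ (inv_mem hx) _

theorem lcs_le_closure (k : ℕ) :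
    (⊤ : Subgroup G).lowerCentralSeries k ≤ closure (Val G k) := by
  induction k with
  | zero =>
    intro x _
    exact subset_closure (Set.mem_univ x)
  | succ k ih =>
    rw [Subgroup.lowerCentralSeries_succ, Subgroup.commutator_le]
    intro a ha g _
    exact comm_closure_mem (ih ha) g

/-! ### The fold form of the values -/

/-- The fold appearing in the statement. -/
def fold {k : ℕ} (f : Fin (k + 1) → G) : G :=
  ((List.ofFn f).tail).foldl (fun a b => a * b * a⁻¹ * b⁻¹) (f 0)

theorem fold_succ {k : ℕ} (f : Fin (k + 2) → G) :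
    fold f = ⁅fold (fun i : Fin (k + 1) => f i.castSucc), f (Fin.last _)⁆ := by
  unfold fold
  rw [List.ofFn_succ_last]
  have hne : List.ofFn (fun i : Fin (k + 1) => f i.castSucc) ≠ [] := by
    simp
  rw [List.tail_append_of_ne_nil hne, List.foldl_append]
  simp [commutatorElement_def]

theorem mem_val_iff_fold {k : ℕ} {x : G} :
    x ∈ Val G k ↔ ∃ f : Fin (k + 1) → G,
      x = ((List.ofFn f).tail).foldl (fun a b => a * b * a⁻¹ * b⁻¹) (f 0) := by
  change x ∈ Val G k ↔ ∃ f : Fin (k + 1) → G, x = fold f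
  induction k generalizing x with
  | zero =>
    simp only [mem_val_zero, true_iff]
    exact ⟨fun _ => x, by simp [fold]⟩
  | succ k ih =>
    constructor
    · rintro ⟨y, hy, g, rfl⟩
      obtain ⟨f, rfl⟩ := ih.1 hy
      refine ⟨Fin.snoc f g, ?_⟩
      rw [fold_succ]
      simp [Fin.snoc_castSucc, Fin.snoc_last]
    · rintro ⟨f, rfl⟩
      rw [fold_succ]
      exact comm_mem_val (ih.2 ⟨_, rfl⟩) _

/-! ### Iterated commutators with a fixed element -/

/-- `iter g j v` is `[v, g, …, g]` with `j` copies of `g`. -/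
def iter (g : G) : ℕ → G → G
  | 0, v => v
  | j + 1, v => ⁅iter g j v, g⁆

@[simp] theorem iter_zero (g v : G) : iter g 0 v = v := rfl

theorem iter_succ (g : G) (j : ℕ) (v : G) : iter g (j + 1) v = ⁅iter g j v, g⁆ := rfl

theorem iter_mem_val (g : G) (j : ℕ) (v : G) : iter g j v ∈ Val G j := by
  induction j with
  | zero => exact Set.mem_univ _
  | succ j ih => exact comm_mem_val ih g

theorem iter_add (g : G) (i j : ℕ) (v : G) : iter g (i + j) v = iter g j (iter g i v) := by
  induction j with
  | zero => rfl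
  | succ j ih => rw [← add_assoc, iter_succ, iter_succ, ih]

theorem map_iter (f : G →* H) (g : G) (j : ℕ) (v : G) :
    f (iter g j v) = iter (f g) j (f v) := by
  induction j with
  | zero => rfl
  | succ j ih => rw [iter_succ, iter_succ, map_commutatorElement, ih]

theorem conj_iter (g : G) (j : ℕ) (v : G) :
    g * iter g j v * g⁻¹ = iter g j (g * v * g⁻¹) := by
  have := map_iter (MulAut.conj g).toMonoidHom g j v
  simpa using this

theorem comm_mem_of_mem_normalizer {P : Subgroup G} {g v : G}
    (hg : g ∈ normalizer (P : Set G)) (hv : v ∈ P) : ⁅v, g⁆ ∈ P := by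
  have h1 : g * v⁻¹ * g⁻¹ ∈ P := (Subgroup.mem_normalizer_iff.1 hg _).1 (inv_mem hv)
  have e : ⁅v, g⁆ = v * (g * v⁻¹ * g⁻¹) := by
    simp only [commutatorElement_def]; group
  rw [e]
  exact mul_mem hv h1

theorem iter_mem {P : Subgroup G} {g v : G} (hg : g ∈ normalizer (P : Set G)) (hv : v ∈ P)
    (j : ℕ) : iter g j v ∈ P := by
  induction j with
  | zero => exact hv
  | succ j ih => exact comm_mem_of_mem_normalizer hg ih

/-- If `[a, g]` commutes with `g` and `g ^ m = 1`, then `[a, g] ^ m = 1`. -/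
theorem comm_pow_eq_one {a g : G} {m : ℕ} (hg : g ^ m = 1) (hc : Commute ⁅a, g⁆ g) :
    ⁅a, g⁆ ^ m = 1 := by
  have h1 : a * g * a⁻¹ = ⁅a, g⁆ * g := by simp [commutatorElement_def]
  have h2 : (a * g * a⁻¹) ^ m = 1 := by rw [conj_pow, hg]; simp
  rw [h1, hc.mul_pow, hg, mul_one] at h2
  exact h2

/-- If `π [v, g] ≠ 1` with `g` a `p'`-element normalizing the `p`-subgroup containing `v`, then
all further iterated commutators survive under `π`. -/
theorem iter_ne_one (π : G →* H) {p : ℕ} [Fact p.Prime] {P : Subgroup G} (hP : IsPGroup p P)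
    {g v : G} (hg : g ∈ normalizer (P : Set G)) (hc : Nat.Coprime (orderOf g) p) (hv : v ∈ P)
    (hne : π ⁅v, g⁆ ≠ 1) (j : ℕ) : π (iter g (j + 1) v) ≠ 1 := by
  induction j with
  | zero => exact hne
  | succ j ih =>
    intro h0
    apply ih
    rw [iter_succ, map_commutatorElement, commutatorElement_eq_one_iff_commute] at h0
    have hw : iter g (j + 1) v ∈ P := iter_mem hg hv _
    obtain ⟨a, ha⟩ := hP ⟨_, hw⟩
    have ha' : (iter g (j + 1) v) ^ p ^ a = 1 := by
      simpa using congrArg Subtype.val ha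
    have h1 : (π (iter g (j + 1) v)) ^ p ^ a = 1 := by
      rw [← map_pow, ha', map_one]
    have h2 : (π (iter g (j + 1) v)) ^ orderOf g = 1 := by
      rw [iter_succ, map_commutatorElement] at h0 ⊢
      exact comm_pow_eq_one (by rw [← map_pow, pow_orderOf_eq_one, map_one]) h0
    have h3 : orderOf (π (iter g (j + 1) v)) = 1 :=
      Nat.eq_one_of_dvd_coprimes (hc.pow_right a) (orderOf_dvd_of_pow_eq_one h2)
        (orderOf_dvd_of_pow_eq_one h1)
    exact orderOf_eq_one_iff.1 h3

end Cfsg.Agent.Lib.BW
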