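import Mathlib
import Cfsg.Agent.Lib.BW.Values
import Cfsg.Agent.Lib.Transfer.Frobenius

/-!
# Lifting a nontrivial `p'`-action, and generation of values by prime power values
-/

set_option autoImplicit false

namespace Cfsg.Agent.Lib.BW

open Subgroup Cfsg.Agent.Lib.Transfer.Frobenius
open scoped commutatorElement

universe u v

variable {G : Type u} [Group G] {H : Type v} [Group H]

/-- A usable form of a normal `p`-complement. -/
theorem exists_complement [Finite G] {p : ℕ} [Fact p.Prime] (h : Cfsg.HasNormalPComplement p G) :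
    ∃ (K : Subgroup G) (_ : K.Normal), ¬ p ∣ Nat.card K ∧ IsPGroup p (G ⧸ K) := by
  obtain ⟨P, K, hK, hc⟩ := h
  refine ⟨K, hK, ?_, ?_⟩
  · rw [← hc.index_eq_card]
    exact P.not_dvd_index
  · obtain ⟨n, hn⟩ := IsPGroup.iff_card.1 P.isPGroup'
    apply IsPGroup.of_card (n := n)
    rw [← Subgroup.index_eq_card, hc.symm.index_eq_card, hn]

/-- Elements of order prime to `p` lie in a normal subgroup with quotient a `p`-group. -/
theorem mem_of_coprime {p : ℕ} [Fact p.Prime] {K : Subgroup G} [K.Normal]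
    (hq : IsPGroup p (G ⧸ K)) {y : G} (hy : Nat.Coprime (orderOf y) p) : y ∈ K := by
  obtain ⟨n, hn⟩ := hq (QuotientGroup.mk' K y)
  have h1 : orderOf (QuotientGroup.mk' K y) ∣ orderOf y :=
    orderOf_map_dvd _ _
  have h2 : orderOf (QuotientGroup.mk' K y) ∣ p ^ n := orderOf_dvd_of_pow_eq_one hn
  have h3 : orderOf (QuotientGroup.mk' K y) = 1 :=
    Nat.eq_one_of_dvd_coprimes (hy.pow_right n) h1 h2
  have h4 : QuotientGroup.mk' K y = 1 := orderOf_eq_one_iff.1 h3
  exact (QuotientGroup.eq_one_iff y).1 h4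

/-- **Lifting a nontrivial action along a surjection.** -/
theorem lifting [Finite G] {p : ℕ} [Fact p.Prime] (π : G →* H) (hπ : Function.Surjective π)
    (Q : Subgroup H) (hQ : IsPGroup p Q) {h₀ : H} (hn : h₀ ∈ normalizer (Q : Set H))
    (hc : Nat.Coprime (orderOf h₀) p) (hnc : h₀ ∉ centralizer (Q : Set H)) :
    ∃ (P₁ : Subgroup G) (g v : G), IsPGroup p P₁ ∧ g ∈ normalizer (P₁ : Set G) ∧
      Nat.Coprime (orderOf g) p ∧ v ∈ P₁ ∧ π ⁅v, g⁆ ≠ 1 := by
  classical
  have hp := (Fact.out : p.Prime)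
  -- the full preimage of `Q`, with a Sylow subgroup
  let A : Subgroup G := Q.comap π
  let P₀ : Sylow p A := default
  let P₁ : Subgroup G := (P₀ : Subgroup A).map A.subtype
  have hP₁ : IsPGroup p P₁ := P₀.isPGroup'.map A.subtype
  have hP₁A : ∀ a ∈ P₁, a ∈ A := by
    rintro _ ⟨a, _, rfl⟩
    exact a.2
  -- `P₁` maps onto `Q`
  let πA : A →* Q := (π.comp A.subtype).codRestrict Q (fun a => a.2)
  have hπA : Function.Surjective πA := by
    rintro ⟨q, hq⟩
    obtain ⟨a, rfl⟩ := hπ q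
    exact ⟨⟨a, hq⟩, rfl⟩
  have hsurj : ∀ q ∈ Q, ∃ a ∈ P₁, π a = q := by
    intro q hq
    let S : Sylow p Q := P₀.mapSurjective hπA
    have hS : (S : Subgroup Q) = ⊤ := (S.is_maximal' (Q := ⊤) (by
      exact hQ.of_equiv Subgroup.topEquiv.symm) le_top).symm
    have hq' : (⟨q, hq⟩ : Q) ∈ (S : Subgroup Q) := by rw [hS]; trivial
    rw [Sylow.coe_mapSurjective] at hq'
    obtain ⟨a, ha, hae⟩ := hq'
    refine ⟨a, ⟨a, ha, rfl⟩, ?_⟩
    exact congrArg Subtype.val hae
  -- a lift of `h₀`, corrected to normalize `P₁`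
  obtain ⟨g₀, rfl⟩ := hπ h₀
  have hg₀A : ∀ a ∈ A, g₀ * a * g₀⁻¹ ∈ A := by
    intro a ha
    change π (g₀ * a * g₀⁻¹) ∈ Q
    rw [map_mul, map_mul, map_inv]
    exact (Subgroup.mem_normalizer_iff.1 hn _).1 ha
  let W : Subgroup A := (P₁.map (MulAut.conj g₀).toMonoidHom).subgroupOf A
  have hW : IsPGroup p W := by
    have h1 : IsPGroup p (P₁.map (MulAut.conj g₀).toMonoidHom) := hP₁.map _
    exact IsPGroup.comap_of_injective h1 A.subtype A.subtype_injective
  obtain ⟨y, hy⟩ := exists_conj_mem_of_isPGroup P₀ hW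
  let n : G := (y : G) * g₀
  have hnP : ∀ a ∈ P₁, n * a * n⁻¹ ∈ P₁ := by
    intro a ha
    have h1 : g₀ * a * g₀⁻¹ ∈ A := hg₀A a (hP₁A a ha)
    have h2 : (⟨g₀ * a * g₀⁻¹, h1⟩ : A) ∈ W := by
      refine Subgroup.mem_subgroupOf.2 ⟨a, ha, ?_⟩
      simp
    have h3 := hy _ h2
    refine ⟨_, h3, ?_⟩
    simp [n, mul_assoc]
  have hnN : n ∈ normalizer (P₁ : Set G) := mem_normalizer_of_conj_mem hnP
  -- the `p'`-part of `n`
  have hnord : orderOf n ≠ 0 := (orderOf_pos n).ne'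
  obtain ⟨e, m, hm, hem⟩ := Nat.exists_eq_pow_mul_and_not_dvd hnord p hp.ne_one
  let g : G := n ^ p ^ e
  have hgord : orderOf g = m := by
    have : p ^ e ∣ orderOf n := ⟨m, hem⟩
    rw [orderOf_pow_of_dvd (pow_ne_zero _ hp.ne_zero) this, hem,
      Nat.mul_div_cancel_left _ (pow_pos hp.pos _)]
  have hgN : g ∈ normalizer (P₁ : Set G) := pow_mem hnN _
  have hgc : Nat.Coprime (orderOf g) p := by
    rw [hgord]
    exact ((Nat.Prime.coprime_iff_not_dvd hp).2 hm).symm
  by_contra hall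
  push Not at hall
  have hgz : ∀ q ∈ Q, Commute (π g) q := by
    intro q hq
    obtain ⟨a, ha, rfl⟩ := hsurj q hq
    have := hall P₁ g a hP₁ hgN hgc ha
    rw [map_commutatorElement, commutatorElement_eq_one_iff_commute] at this
    exact this.symm
  have hyA : π (y : G) ∈ Q := y.2
  have hhN : π n ∈ normalizer (Q : Set H) := by
    simp only [n, map_mul]
    exact mul_mem (Subgroup.le_normalizer hyA) hn
  have hpow : ∀ j : ℕ, ∃ a ∈ Q, (π g₀) ^ j = a * (π n) ^ j := by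
    intro j
    induction j with
    | zero => exact ⟨1, one_mem _, by simp⟩
    | succ j ih =>
      obtain ⟨a, ha, hae⟩ := ih
      have hâ : (π (y : G))⁻¹ ∈ Q := inv_mem hyA
      have hconj : (π n) ^ j * (π (y : G))⁻¹ * ((π n) ^ j)⁻¹ ∈ Q :=
        (Subgroup.mem_normalizer_iff.1 (pow_mem hhN j) _).1 hâ
      refine ⟨a * ((π n) ^ j * (π (y : G))⁻¹ * ((π n) ^ j)⁻¹), mul_mem ha hconj, ?_⟩
      rw [pow_succ, hae, pow_succ]
      simp [n]
      group
  obtain ⟨a, ha, hae⟩ := hpow (p ^ e)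
  obtain ⟨N, hN⟩ := hQ ⟨a, ha⟩
  have hN' : a ^ p ^ N = 1 := by simpa using congrArg Subtype.val hN
  have hcomm : Commute a (π g) := (hgz a ha).symm
  have hg₂ : (π g₀) ^ (p ^ e * p ^ N) = (π g) ^ p ^ N := by
    have hng : (π n) ^ p ^ e = π g := by simp [g]
    rw [pow_mul, hae, hng, hcomm.mul_pow, hN', one_mul]
  apply hnc
  have hz : (π g₀) ^ (p ^ e * p ^ N) ∈ centralizer (Q : Set H) := by
    rw [hg₂]
    refine pow_mem ?_ _
    rw [Subgroup.mem_centralizer_iff]
    intro q hq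
    exact ((hgz q hq).eq).symm
  obtain ⟨c, hc'⟩ := exists_pow_eq_self_of_coprime
    (x := π g₀) (n := p ^ e * p ^ N) (by
      rw [← pow_add]
      exact (hc.pow_right _).symm)
  rw [← hc']
  exact pow_mem hz c

/-- Elements of a normal subgroup without `p` in its order have order prime to `p`. -/
theorem not_dvd_orderOf_of_mem [Finite G] {p : ℕ} {K : Subgroup G} (hK : ¬ p ∣ Nat.card K) {x : G}
    (hx : x ∈ K) : ¬ p ∣ orderOf x := by
  intro h
  apply hK
  have h1 : orderOf (⟨x, hx⟩ : K) ∣ Nat.card K := orderOf_dvd_natCard _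
  rw [Subgroup.orderOf_mk] at h1
  exact h.trans h1

/-- The order of an element of a `p`-subgroup is a power of `p`. -/
theorem orderOf_eq_pow_of_mem {p : ℕ} [Fact p.Prime] {P : Subgroup G} (hP : IsPGroup p P) {x : G}
    (hx : x ∈ P) : ∃ n, orderOf x = p ^ n := by
  obtain ⟨n, hn⟩ := IsPGroup.iff_orderOf.1 hP ⟨x, hx⟩
  exact ⟨n, by rwa [Subgroup.orderOf_mk] at hn⟩

/-- Values are generated, modulo any normal subgroup containing the values of prime power order,
by these values. -/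
theorem generation [Finite G] {k : ℕ} (W : Subgroup G) [W.Normal]
    (hW : ∀ (p n : ℕ), p.Prime → ∀ y ∈ Val G k, orderOf y = p ^ n → y ∈ W) :
    ∀ x ∈ Val G k, x ∈ W := by
  intro x hx
  let π : G →* G ⧸ W := QuotientGroup.mk' W
  have hπ : Function.Surjective π := QuotientGroup.mk'_surjective W
  have hfrob : ∀ (p : ℕ) [Fact p.Prime], FrobeniusHyp p (G ⧸ W) := by
    intro p _
    intro Q hQ h₀ hn hc
    by_contra hnc
    obtain ⟨P₁, g, v, hP₁, hg, hgc, hv, hne⟩ := lifting π hπ Q hQ hn hc hnc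
    have h1 := iter_ne_one π hP₁ hg hgc hv hne k
    apply h1
    have h2 : iter g (k + 1) v ∈ P₁ := iter_mem hg hv _
    obtain ⟨n, hnn⟩ := orderOf_eq_pow_of_mem hP₁ h2
    have h3 := hW p n Fact.out _ (val_succ_subset k (iter_mem_val g (k + 1) v)) hnn
    exact (QuotientGroup.eq_one_iff _).2 h3
  -- it suffices to show that the image of `x` is trivial
  rw [← QuotientGroup.eq_one_iff, ← orderOf_eq_one_iff]
  by_contra hne
  obtain ⟨p, hp, hpd⟩ := Nat.exists_prime_and_dvd hne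
  have : Fact p.Prime := ⟨hp⟩
  obtain ⟨K, hKn, hKc, hKq⟩ := exists_complement (hasNormalPComplement_of_hyp (hfrob p))
  -- the surjection to the `p`-group `(G / W) / K`
  let Φ : G →* (G ⧸ W) ⧸ K := (QuotientGroup.mk' K).comp π
  have hΦ : Function.Surjective Φ := (QuotientGroup.mk'_surjective K).comp hπ
  let S : Sylow p G := default
  let T : Sylow p ((G ⧸ W) ⧸ K) := S.mapSurjective hΦ
  have hT : (T : Subgroup ((G ⧸ W) ⧸ K)) = ⊤ := (T.is_maximal' (Q := ⊤) (by
    exact hKq.of_equiv Subgroup.topEquiv.symm) le_top).symm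
  let Φ' : S →* (G ⧸ W) ⧸ K := Φ.comp (S : Subgroup G).subtype
  have hΦ' : Function.Surjective Φ' := by
    intro r
    have hr : r ∈ (T : Subgroup ((G ⧸ W) ⧸ K)) := by rw [hT]; trivial
    rw [Sylow.coe_mapSurjective] at hr
    obtain ⟨a, ha, rfl⟩ := hr
    exact ⟨⟨a, ha⟩, rfl⟩
  obtain ⟨x', hx', hxe⟩ := val_lift Φ' hΦ' (val_map Φ hx)
  have hx'G : (x' : G) ∈ Val G k := val_map (S : Subgroup G).subtype hx'
  obtain ⟨n, hnn⟩ := orderOf_eq_pow_of_mem S.isPGroup' x'.2
  have hx'W : (x' : G) ∈ W := hW p n hp _ hx'G hnn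
  have hπx' : π (x' : G) = 1 := (QuotientGroup.eq_one_iff _).2 hx'W
  have hΦx : Φ x = 1 := by
    rw [← hxe]
    change (QuotientGroup.mk' K) (π (x' : G)) = 1
    rw [hπx', map_one]
  have hπx : (x : G ⧸ W) ∈ K := (QuotientGroup.eq_one_iff _).1 hΦx
  exact not_dvd_orderOf_of_mem hKc hπx hpd

end Cfsg.Agent.Lib.BW
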