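import Mathlib
import Cfsg.Agent.Lib.BW.Lifting
import Cfsg.Agent.Lib.Nilpotent.Fitting
import Cfsg.Agent.Lib.Components.Fitting

/-!
# The key claim: solvable groups generated by `p`-element values are `p`-groups
-/

set_option autoImplicit false

namespace Cfsg.Agent.Lib.BW

open Subgroup Cfsg.Agent.Lib.Transfer.Frobenius
open scoped commutatorElement

universe u

variable {L : Type u} [Group L] [Finite L]

/-- A value of `ℓ`-power order commutes with the `r`-core, for `r ≠ ℓ`, by the star property. -/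
theorem comm_pCore {𝒱 : Set L}
    (hstar : ∀ y ∈ 𝒱, ∀ g : L, Nat.Coprime (orderOf ⁅y, g⁆) (orderOf y) → ⁅y, g⁆ = 1)
    {y : L} (hy : y ∈ 𝒱) {ℓ r n : ℕ} [Fact ℓ.Prime] [Fact r.Prime] (hne : r ≠ ℓ)
    (hord : orderOf y = ℓ ^ n) {u : L} (hu : u ∈ Cfsg.pCore r L) : Commute y u := by
  have hN : (Cfsg.pCore r L).Normal := Cfsg.Agent.Lib.Nilpotent.Fitting.pCore_normal r
  have h1 : ⁅y, u⁆ ∈ Cfsg.pCore r L := by
    have e : ⁅y, u⁆ = (y * u * y⁻¹) * u⁻¹ := rfl
    rw [e]
    exact mul_mem (hN.conj_mem u hu y) (inv_mem hu)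
  obtain ⟨a, ha⟩ := orderOf_eq_pow_of_mem (Cfsg.Agent.Lib.Nilpotent.Fitting.isPGroup_pCore r) h1
  have hc : Nat.Coprime (orderOf ⁅y, u⁆) (orderOf y) := by
    rw [ha, hord]
    exact Nat.Coprime.pow _ _ ((Nat.coprime_primes Fact.out Fact.out).2 hne)
  exact commutatorElement_eq_one_iff_commute.1 (hstar y hy u hc)

/-- **Claim E.** A finite solvable group generated by `p`-element values is a `p`-group. -/
theorem claimE (hS : Group.IsSolvable L) {p k : ℕ} [Fact p.Prime] (𝒱 : Set L)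
    (hiter : ∀ g v : L, iter g (k + 1) v ∈ 𝒱)
    (hstar : ∀ y ∈ 𝒱, ∀ g : L, Nat.Coprime (orderOf ⁅y, g⁆) (orderOf y) → ⁅y, g⁆ = 1)
    (hgen : closure {y | y ∈ 𝒱 ∧ ∃ n, orderOf y = p ^ n} = ⊤) : IsPGroup p L := by
  -- (1) `O_r` is central for `r ≠ p`
  have h1 : ∀ (r : ℕ) [Fact r.Prime], r ≠ p → Cfsg.pCore r L ≤ center L := by
    intro r _ hrp u hu
    have h : closure {y | y ∈ 𝒱 ∧ ∃ n, orderOf y = p ^ n} ≤ centralizer {u} := by
      rw [closure_le]
      rintro y ⟨hy, n, hn⟩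
      rw [SetLike.mem_coe, Subgroup.mem_centralizer_singleton_iff]
      have := comm_pCore hstar hy hrp hn hu
      exact this.eq
    rw [hgen] at h
    rw [Subgroup.mem_center_iff]
    intro g
    have := h (Subgroup.mem_top g)
    rw [Subgroup.mem_centralizer_singleton_iff] at this
    exact this
  -- `C(F) ≤ F`
  have hCF : centralizer (Cfsg.fittingSubgroup L : Set L) ≤ Cfsg.fittingSubgroup L := by
    have := hS
    exact Cfsg.Agent.Lib.Components.Fitting.le_fitting_of_solvable_of_le_centralizer _ le_rfl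
      Subgroup.le_normalizer inferInstance
  -- (2) `ℓ`-element values are central for `ℓ ≠ p`
  have h2 : ∀ (ℓ : ℕ) [Fact ℓ.Prime], ℓ ≠ p → ∀ y ∈ 𝒱, ∀ n, orderOf y = ℓ ^ n → y ∈ center L := by
    intro ℓ _ hℓp y hy n hn
    have hyC : y ∈ centralizer (Cfsg.fittingSubgroup L : Set L) := by
      rw [Subgroup.mem_centralizer_iff]
      intro u hu
      have hu' : u ∈ ⨆ q : Nat.Primes, Cfsg.pCore (q : ℕ) L := by
        rw [← Cfsg.Agent.Lib.Nilpotent.Fitting.fittingSubgroup_eq_iSup_primes]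
        exact hu
      have h3 : ⨆ q : Nat.Primes, Cfsg.pCore (q : ℕ) L ≤ centralizer {y} := by
        apply iSup_le
        rintro ⟨q, hq⟩ u hu
        have : Fact q.Prime := ⟨hq⟩
        rw [Subgroup.mem_centralizer_singleton_iff]
        by_cases hqp : q = p
        · subst hqp
          have hqℓ : q ≠ ℓ := fun e => hℓp e.symm
          exact (comm_pCore hstar hy hqℓ hn hu).eq.symm
        · have := (Subgroup.mem_center_iff.1 (h1 q hqp hu)) y
          exact this.symm
      have := h3 hu'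
      rw [Subgroup.mem_centralizer_singleton_iff] at this
      exact this
    have hyF := hCF hyC
    have hyO : y ∈ Cfsg.pCore ℓ L :=
      Cfsg.Agent.Lib.Nilpotent.Fitting.mem_pCore_of_mem_nilpotent_normal
        Cfsg.Agent.Lib.Nilpotent.Fitting.isNilpotent_fittingSubgroup hyF hn
    exact h1 ℓ hℓp hyO
  -- (3) the Frobenius hypothesis holds for `ℓ ≠ p`
  have h3 : ∀ (ℓ : ℕ) [Fact ℓ.Prime], ℓ ≠ p → FrobeniusHyp ℓ L := by
    intro ℓ _ hℓp Q hQ g hg hgc
    by_contra hnc
    rw [Subgroup.mem_centralizer_iff] at hnc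
    push Not at hnc
    obtain ⟨v, hv, hvg⟩ := hnc
    have hne : (MonoidHom.id L) ⁅v, g⁆ ≠ 1 := by
      simp only [MonoidHom.id_apply]
      intro h
      exact hvg (commutatorElement_eq_one_iff_commute.1 h).eq
    have h4 := iter_ne_one (MonoidHom.id L) hQ hg hgc hv hne (k + 1)
    simp only [MonoidHom.id_apply] at h4
    apply h4
    have hyQ : iter g (k + 1) v ∈ Q := iter_mem hg hv _
    obtain ⟨n, hn⟩ := orderOf_eq_pow_of_mem hQ hyQ
    have hz := h2 ℓ hℓp _ (hiter g v) n hn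
    rw [iter_succ, commutatorElement_eq_one_iff_commute]
    exact (Subgroup.mem_center_iff.1 hz g).symm
  -- (4) no prime other than `p` divides the order
  have h4 : ∀ ℓ : ℕ, ℓ.Prime → ℓ ∣ Nat.card L → ℓ = p := by
    intro ℓ hℓ hd
    by_contra hne
    have : Fact ℓ.Prime := ⟨hℓ⟩
    obtain ⟨K, hKn, hKc, hKq⟩ := exists_complement (hasNormalPComplement_of_hyp (h3 ℓ hne))
    have hKtop : K = ⊤ := by
      rw [eq_top_iff, ← hgen, closure_le]
      rintro y ⟨_, n, hn⟩
      apply mem_of_coprime hKq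
      rw [hn]
      exact Nat.Coprime.pow_left _ ((Nat.coprime_primes Fact.out hℓ).2 (fun e => hne e.symm))
    rw [hKtop, Nat.card_congr Subgroup.topEquiv.toEquiv] at hKc
    exact hKc hd
  have hcard : Nat.card L ≠ 0 := Nat.card_pos.ne'
  exact IsPGroup.of_card (Nat.eq_prime_pow_of_unique_prime_dvd hcard fun {d} hd hdv => h4 d hd hdv)

end Cfsg.Agent.Lib.BW
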