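import Mathlib
import Cfsg.Agent.Lib.BW.Values

/-!
# Producing a value whose image is an involution
-/

set_option autoImplicit false

namespace Cfsg.Agent.Lib.BW

open Subgroup
open scoped commutatorElement

universe u v

variable {G : Type u} [Group G] {H : Type v} [Group H]

/-- If `[y, s]` commutes with `y` and `s`, then `[y, s ^ m] = [y, s] ^ m`. -/
theorem comm_pow_right {y s : G} (h1 : Commute ⁅y, s⁆ s) (m : ℕ) :
    ⁅y, s ^ m⁆ = ⁅y, s⁆ ^ m := by
  induction m with
  | zero => simp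
  | succ m ih =>
    have e : ⁅y, s ^ (m + 1)⁆ = ⁅y, s ^ m⁆ * (s ^ m * ⁅y, s⁆ * (s ^ m)⁻¹) := by
      simp only [commutatorElement_def, pow_succ]
      group
    have hc : s ^ m * ⁅y, s⁆ * (s ^ m)⁻¹ = ⁅y, s⁆ := by
      have := (h1.symm.pow_left m)
      rw [this.eq, mul_assoc, mul_inv_cancel, mul_one]
    rw [e, hc, ih, pow_succ]

/-- If `b` commutes with `g b g⁻¹`, then `[b ^ m, g] = [b, g] ^ m`. -/
theorem comm_pow_left {b g : G} (hc : Commute b (g * b * g⁻¹)) (m : ℕ) :
    ⁅b ^ m, g⁆ = ⁅b, g⁆ ^ m := by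
  have e : ∀ a : G, ⁅a, g⁆ = a * (g * a * g⁻¹)⁻¹ := by
    intro a
    simp only [commutatorElement_def]
    group
  rw [e, e, hc.inv_right.mul_pow, inv_pow, conj_pow]

/-- A nontrivial element of `2`-power order has a power of order `2`. -/
theorem exists_pow_orderOf_two {w : G} (hw : w ≠ 1) {n : ℕ} (hn : orderOf w = 2 ^ n) :
    ∃ m, orderOf (w ^ m) = 2 := by
  have hn0 : n ≠ 0 := by
    rintro rfl
    exact hw (orderOf_eq_one_iff.1 (by simpa using hn))
  have h2 : 2 ∣ orderOf w := by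
    rw [hn]
    exact dvd_pow_self 2 hn0
  exact ⟨orderOf w / 2, orderOf_pow_orderOf_div (by rw [hn]; positivity) h2⟩

/-- Going down the upper central series of the `p`-group: a commutator surviving under `π` gives
a last one, which is central modulo the kernel of `π`. -/
theorem exists_last_noncentral (π : G →* H) (P₁ : Subgroup G) [hnil : Group.IsNilpotent P₁]
    {k : ℕ} {y s : G} (hy : y ∈ Val G k) (hyP : y ∈ P₁) (hs : s ∈ P₁) (hne : π ⁅y, s⁆ ≠ 1) :
    ∃ y' ∈ Val G k, y' ∈ P₁ ∧ ∃ s' ∈ P₁, π ⁅y', s'⁆ ≠ 1 ∧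
      ∀ s'' ∈ P₁, ∀ r ∈ P₁, π ⁅⁅y', s''⁆, r⁆ = 1 := by
  obtain ⟨n, hn⟩ := Group.IsNilpotent.nilpotent' (G := P₁)
  have key : ∀ (n : ℕ) (y s : G), y ∈ Val G k → ∀ (hyP : y ∈ P₁), s ∈ P₁ → π ⁅y, s⁆ ≠ 1 →
      (⟨y, hyP⟩ : P₁) ∈ Subgroup.upperCentralSeries P₁ n →
      ∃ y' ∈ Val G k, y' ∈ P₁ ∧ ∃ s' ∈ P₁, π ⁅y', s'⁆ ≠ 1 ∧
        ∀ s'' ∈ P₁, ∀ r ∈ P₁, π ⁅⁅y', s''⁆, r⁆ = 1 := by
    intro n
    induction n with
    | zero =>
      intro y s _ hyP _ hne hmem
      have h1 : (⟨y, hyP⟩ : P₁) = 1 := by simpa using hmem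
      have h2 : y = 1 := congrArg Subtype.val h1
      subst h2
      simp at hne
    | succ n ih =>
      intro y s hy hyP hs hne hmem
      by_cases hall : ∀ s'' ∈ P₁, ∀ r ∈ P₁, π ⁅⁅y, s''⁆, r⁆ = 1
      · exact ⟨y, hy, hyP, s, hs, hne, hall⟩
      · push Not at hall
        obtain ⟨s'', hs'', r, hr, hne'⟩ := hall
        have hcP : ⁅y, s''⁆ ∈ P₁ := by
          have e : ⁅y, s''⁆ = y * s'' * y⁻¹ * s''⁻¹ := rfl
          rw [e]
          exact mul_mem (mul_mem (mul_mem hyP hs'') (inv_mem hyP)) (inv_mem hs'')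
        refine ih ⁅y, s''⁆ r (val_succ_subset k (comm_mem_val hy s'')) hcP hr hne' ?_
        have := Subgroup.mem_upperCentralSeries_succ_iff.1 hmem ⟨s'', hs''⟩
        exact this
  exact key n y s hy hyP hs hne (by rw [hn]; trivial)

/-- The image of a `2`-element value of order exactly two. -/
theorem exists_involution_value (π : G →* H) {P₁ : Subgroup G} (hP : IsPGroup 2 P₁) {g v : G}
    (hg : g ∈ normalizer (P₁ : Set G)) (hv : v ∈ P₁)
    (hneall : ∀ j, π (iter g (j + 1) v) ≠ 1) [hfin : Finite G] (k : ℕ) :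
    ∃ t ∈ Val G k, t ∈ P₁ ∧ orderOf (π t) = 2 := by
  have : Fact (Nat.Prime 2) := ⟨Nat.prime_two⟩
  have hnil : Group.IsNilpotent P₁ := hP.isNilpotent
  have horder : ∀ a ∈ P₁, ∃ n, orderOf (π a) = 2 ^ n := by
    intro a ha
    obtain ⟨n, hn⟩ := IsPGroup.iff_orderOf.1 hP ⟨a, ha⟩
    rw [Subgroup.orderOf_mk] at hn
    have hd : orderOf (π a) ∣ 2 ^ n := hn ▸ orderOf_map_dvd π a
    obtain ⟨j, _, hj⟩ := (Nat.dvd_prime_pow Nat.prime_two).1 hd
    exact ⟨j, hj⟩
  by_cases hA : ∃ y ∈ Val G k, y ∈ P₁ ∧ ∃ s ∈ P₁, π ⁅y, s⁆ ≠ 1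
  · -- Case A: a value is noncentral modulo the kernel of `π`
    obtain ⟨y, hy, hyP, s, hs, hne1⟩ := hA
    obtain ⟨y', hy', hy'P, s', hs', hne2, hlast⟩ := exists_last_noncentral π P₁ hy hyP hs hne1
    have hcP : ⁅y', s'⁆ ∈ P₁ := by
      have e : ⁅y', s'⁆ = y' * s' * y'⁻¹ * s'⁻¹ := rfl
      rw [e]
      exact mul_mem (mul_mem (mul_mem hy'P hs') (inv_mem hy'P)) (inv_mem hs')
    obtain ⟨n, hn⟩ := horder _ hcP
    obtain ⟨m, hm⟩ := exists_pow_orderOf_two hne2 hn
    refine ⟨⁅y', s' ^ m⁆, val_succ_subset k (comm_mem_val hy' _), ?_, ?_⟩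
    · have hpow : s' ^ m ∈ P₁ := pow_mem hs' m
      have e : ⁅y', s' ^ m⁆ = y' * s' ^ m * y'⁻¹ * (s' ^ m)⁻¹ := rfl
      rw [e]
      exact mul_mem (mul_mem (mul_mem hy'P hpow) (inv_mem hy'P)) (inv_mem hpow)
    · have hc : Commute ⁅π y', π s'⁆ (π s') := by
        have := hlast s' hs' s' hs'
        rw [map_commutatorElement, map_commutatorElement,
          commutatorElement_eq_one_iff_commute] at this
        exact this
      rw [map_commutatorElement, map_pow, comm_pow_right hc, ← map_commutatorElement]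
      exact hm
  · -- Case B: all values are central modulo the kernel of `π`
    push Not at hA
    let x := iter g (k + 1) v
    have hxP : x ∈ P₁ := iter_mem hg hv _
    have hw : π (iter g (k + 1) x) ≠ 1 := by
      have := hneall (k + 1 + k)
      rwa [show k + 1 + k + 1 = (k + 1) + (k + 1) by omega, iter_add] at this
    have hwP : iter g (k + 1) x ∈ P₁ := iter_mem hg hxP _
    obtain ⟨n, hn⟩ := horder _ hwP
    obtain ⟨m, hm⟩ := exists_pow_orderOf_two hw hn
    have hpow : ∀ j, iter (π g) j (π x ^ m) = (iter (π g) j (π x)) ^ m := by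
      intro j
      induction j with
      | zero => rfl
      | succ j ih =>
        rw [iter_succ, iter_succ, ih]
        apply comm_pow_left
        -- the two elements are images of values in `P₁`
        let B := iter g j x
        have hBP : B ∈ P₁ := iter_mem hg hxP j
        have hBV : B ∈ Val G k := by
          have : B = iter g (k + 1 + j) v := (iter_add g (k + 1) j v).symm
          rw [this]
          exact val_anti (by omega) (iter_mem_val g _ v)
        have hcP : g * B * g⁻¹ ∈ P₁ := (Subgroup.mem_normalizer_iff.1 hg _).1 hBP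
        have hcV : g * B * g⁻¹ ∈ Val G k := val_conj hBV g
        have h0 := hA _ hcV hcP B hBP
        rw [map_commutatorElement, commutatorElement_eq_one_iff_commute] at h0
        have hbe : iter (π g) j (π x) = π B := (map_iter π g j x).symm
        rw [hbe]
        have : π g * π B * (π g)⁻¹ = π (g * B * g⁻¹) := by simp
        rw [this]
        exact h0.symm
    refine ⟨iter g (k + 1) (x ^ m), val_succ_subset k (iter_mem_val g _ _),
      iter_mem hg (pow_mem hxP m) _, ?_⟩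
    rw [map_iter, map_pow, hpow, ← map_iter]
    exact hm

end Cfsg.Agent.Lib.BW
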