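import Mathlib
import Cfsg.Agent.Lib.BW.ClaimE
import Cfsg.Agent.Lib.BW.Involution
import Cfsg.Agent.Lib.Nilpotent.Elements

/-!
# Nilpotency of a term of the lower central series from an order condition on values

The proof is carried out with the odd order theorem and the Baer–Suzuki theorem as hypotheses
`OddH`, `BSH`; they are discharged in the statement file.
-/

set_option autoImplicit false

namespace Cfsg.Agent.Lib.BW

open Subgroup Cfsg.Agent.Lib.Transfer.Frobenius
open scoped commutatorElement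

universe u

variable {G : Type u} [Group G]

/-- The order condition on values. -/
def Hyp (G : Type u) [Group G] (k : ℕ) : Prop :=
  ∀ x ∈ Val G k, ∀ y ∈ Val G k, Nat.Coprime (orderOf x) (orderOf y) →
    (∀ r : ℕ, r.Prime → r ∣ orderOf x * orderOf y → r ∣ orderOf (x * y)) ∨
      orderOf x * orderOf y ≤ orderOf (x * y)

theorem Hyp.subgroup {k : ℕ} (h : Hyp G k) (H : Subgroup G) : Hyp H k := by
  intro x hx y hy hc
  have hx' : (x : G) ∈ Val G k := val_map H.subtype hx
  have hy' : (y : G) ∈ Val G k := val_map H.subtype hy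
  have := h _ hx' _ hy' (by simpa [Subgroup.orderOf_coe] using hc)
  rw [← Subgroup.coe_mul, Subgroup.orderOf_coe, Subgroup.orderOf_coe, Subgroup.orderOf_coe] at this
  exact this

theorem orderOf_conj_eq (g y : G) : orderOf (g * y * g⁻¹) = orderOf y :=
  orderOf_injective (MulAut.conj g).toMonoidHom (MulAut.conj g).injective y

/-- The star property. -/
theorem star [Finite G] {k : ℕ} (h : Hyp G k) {y : G} (hy : y ∈ Val G k) (g : G)
    (hc : Nat.Coprime (orderOf ⁅y, g⁆) (orderOf y)) : ⁅y, g⁆ = 1 := by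
  by_contra hne
  have hx : ⁅y, g⁆ ∈ Val G k := val_succ_subset k (comm_mem_val hy g)
  have hy' : g * y * g⁻¹ ∈ Val G k := val_conj hy g
  have ho : orderOf (g * y * g⁻¹) = orderOf y := orderOf_conj_eq g y
  have e : ⁅y, g⁆ * (g * y * g⁻¹) = y := by
    simp only [commutatorElement_def]
    group
  have hdis := h _ hx _ hy' (by rw [ho]; exact hc)
  rw [e, ho] at hdis
  have hx1 : orderOf ⁅y, g⁆ ≠ 1 := mt orderOf_eq_one_iff.1 hne
  rcases hdis with h1 | h1
  · obtain ⟨r, hr, hrd⟩ := Nat.exists_prime_and_dvd hx1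
    have h2 := h1 r hr (hrd.trans (dvd_mul_right _ _))
    exact hr.one_lt.ne' (Nat.eq_one_of_dvd_coprimes hc hrd h2)
  · have hpos : 0 < orderOf y := orderOf_pos y
    have hpos' : 0 < orderOf ⁅y, g⁆ := orderOf_pos _
    have : orderOf ⁅y, g⁆ ≤ 1 := by
      by_contra hlt
      push Not at hlt
      nlinarith
    omega

/-- A group with a normal `p`-complement for every `p` is nilpotent. -/
theorem isNilpotent_of_frobeniusHyp [Finite G] (h : ∀ (p : ℕ) [Fact p.Prime], FrobeniusHyp p G) :
    Group.IsNilpotent G := by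
  refine ((Group.isNilpotent_of_finite_tfae (G := G)).out 3 0 rfl rfl).1 ?_
  intro p _ P
  -- the intersection of all the complements for the primes other than `p`
  let D : Subgroup G := sInf {K | K.Normal ∧ ∃ q : ℕ, q.Prime ∧ q ≠ p ∧ ¬ q ∣ Nat.card K ∧
    ∃ _ : K.Normal, IsPGroup q (G ⧸ K)}
  have hDn : D.Normal :=
    ⟨fun n hn g => Subgroup.mem_sInf.2 fun K hK => hK.1.conj_mem n (Subgroup.mem_sInf.1 hn K hK) g⟩
  have hPD : (P : Subgroup G) ≤ D := by
    intro x hx
    refine Subgroup.mem_sInf.2 ?_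
    rintro K ⟨hKn, q, hq, hqp, _, _, hqG⟩
    obtain ⟨n, hn⟩ := orderOf_eq_pow_of_mem P.isPGroup' hx
    have : Fact q.Prime := ⟨hq⟩
    apply mem_of_coprime (p := q) hqG
    rw [hn]
    exact Nat.Coprime.pow_left _ ((Nat.coprime_primes Fact.out hq).2 (fun e => hqp e.symm))
  have hDp : IsPGroup p D := by
    rw [IsPGroup.iff_orderOf]
    rintro ⟨x, hx⟩
    rw [Subgroup.orderOf_mk]
    have hord : orderOf x ≠ 0 := (orderOf_pos x).ne'
    refine ⟨_, Nat.eq_prime_pow_of_unique_prime_dvd hord fun {q} hq hqd => ?_⟩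
    by_contra hqp
    have : Fact q.Prime := ⟨hq⟩
    obtain ⟨K, hKn, hKc, hKq⟩ := exists_complement (hasNormalPComplement_of_hyp (h q))
    have hxK : x ∈ K := Subgroup.mem_sInf.1 hx K ⟨hKn, q, hq, hqp, hKc, hKn, hKq⟩
    exact not_dvd_orderOf_of_mem hKc hxK hqd
  have heq : D = P := P.is_maximal' hDp hPD
  rw [← heq]
  exact hDn

/-- Every nontrivial finite group has a simple quotient. -/
theorem exists_simple_quotient [Finite G] [Nontrivial G] :
    ∃ (M : Subgroup G) (_ : M.Normal), IsSimpleGroup (G ⧸ M) := by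
  classical
  have hfin : ({N : Subgroup G | N.Normal ∧ N ≠ ⊤}).Finite := Set.toFinite _
  have hne : ({N : Subgroup G | N.Normal ∧ N ≠ ⊤}).Nonempty :=
    ⟨⊥, inferInstance, bot_ne_top⟩
  obtain ⟨M, hM⟩ := hfin.exists_maximal hne
  have hMn : M.Normal := hM.prop.1
  refine ⟨M, hMn, ?_⟩
  haveI : Nontrivial (G ⧸ M) := QuotientGroup.nontrivial_iff.2 hM.prop.2
  refine ⟨fun H hH => ?_⟩
  let N : Subgroup G := H.comap (QuotientGroup.mk' M)
  have hNn : N.Normal := hH.comap _
  have hMN : M ≤ N := by
    intro x hx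
    change (QuotientGroup.mk' M) x ∈ H
    have h1 : (QuotientGroup.mk' M) x = 1 := (QuotientGroup.eq_one_iff x).2 hx
    rw [h1]
    exact one_mem _
  by_cases hNt : N = ⊤
  · right
    rw [eq_top_iff]
    intro y _
    obtain ⟨x, rfl⟩ := QuotientGroup.mk'_surjective M y
    have : x ∈ N := by rw [hNt]; trivial
    exact this
  · left
    have hNM : N ≤ M := hM.le_of_ge ⟨hNn, hNt⟩ hMN
    rw [eq_bot_iff]
    intro y hy
    obtain ⟨x, rfl⟩ := QuotientGroup.mk'_surjective M y
    have : x ∈ M := hNM hy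
    exact (Subgroup.mem_bot).2 ((QuotientGroup.eq_one_iff x).2 this)

/-- In a simple noncommutative finite group, two involutions do not generate the group. -/
theorem closure_pair_ne_top {Q : Type u} [Group Q] [Finite Q] [IsSimpleGroup Q]
    (hnc : ¬ ∀ a b : Q, Commute a b) {a b : Q} (ha : a ^ 2 = 1) (hb : b ^ 2 = 1) :
    closure {a, b} ≠ ⊤ := by
  intro htop
  have hcyc : ∀ c : Q, zpowers c = ⊤ → ∀ x y : Q, Commute x y := by
    intro c hc x y
    have hx : x ∈ zpowers c := by rw [hc]; trivial
    have hy : y ∈ zpowers c := by rw [hc]; trivial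
    obtain ⟨i, rfl⟩ := Subgroup.mem_zpowers_iff.1 hx
    obtain ⟨j, rfl⟩ := Subgroup.mem_zpowers_iff.1 hy
    exact (Commute.refl c).zpow_zpow i j
  have ha' : a⁻¹ = a := by rw [inv_eq_iff_mul_eq_one, ← pow_two, ha]
  have hb' : b⁻¹ = b := by rw [inv_eq_iff_mul_eq_one, ← pow_two, hb]
  have haa : a * a = 1 := by rw [← pow_two, ha]
  have hbb : b * b = 1 := by rw [← pow_two, hb]
  have hinv : (a * b)⁻¹ = b * a := by rw [mul_inv_rev, ha', hb']
  have hconj : ∀ x ∈ ({a, b} : Set Q), x ∈ normalizer (zpowers (a * b) : Set Q) := by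
    intro x hx
    have hxe : x * (a * b) * x⁻¹ = (a * b)⁻¹ := by
      rw [hinv]
      rcases hx with rfl | rfl
      · rw [ha', ← mul_assoc, haa, one_mul]
      · rw [hb']
        calc x * (a * x) * x = x * a * (x * x) := by group
          _ = x * a := by rw [hbb, mul_one]
    apply mem_normalizer_of_conj_mem
    intro q hq
    obtain ⟨i, rfl⟩ := Subgroup.mem_zpowers_iff.1 hq
    rw [← conj_zpow, hxe]
    exact zpow_mem (inv_mem (mem_zpowers _)) i
  have hN : normalizer (zpowers (a * b) : Set Q) = ⊤ := by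
    rw [eq_top_iff, ← htop, closure_le]
    exact hconj
  have hCn : (zpowers (a * b)).Normal := normalizer_eq_top_iff.1 hN
  rcases IsSimpleGroup.eq_bot_or_eq_top_of_normal _ hCn with h | h
  · have hab : a * b = 1 := zpowers_eq_bot.1 h
    have hba : b = a := by
      have : a * b = a * a := by rw [hab, haa]
      exact mul_left_cancel this
    subst hba
    apply hnc
    apply hcyc b
    rw [← htop, Set.pair_eq_singleton, Subgroup.zpowers_eq_closure]
  · exact hnc (hcyc _ h)

/-- The consequence of Claim E for subgroups of a group satisfying the order condition. -/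
theorem isPGroup_closure_of_values [Finite G] {k : ℕ} (hyp : Hyp G k) {p : ℕ} [Fact p.Prime]
    (s : Set G) (hsV : s ⊆ Val G k) (hsO : ∀ y ∈ s, ∃ n, orderOf y = p ^ n)
    (hsol : Group.IsSolvable (closure s)) : IsPGroup p (closure s) := by
  refine claimE (k := k) hsol (((↑) : closure s → G) ⁻¹' Val G k) ?_ ?_ ?_
  · intro g v
    have h1 := map_iter (closure s).subtype g (k + 1) v
    change ((iter g (k + 1) v : closure s) : G) ∈ Val G k
    have h2 : ((iter g (k + 1) v : closure s) : G) = iter (g : G) (k + 1) (v : G) := h1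
    rw [h2]
    exact val_succ_subset k (iter_mem_val _ _ _)
  · intro y hy g hc
    apply Subtype.ext
    have h3 : ((⁅y, g⁆ : closure s) : G) = ⁅(y : G), (g : G)⁆ := rfl
    rw [h3]
    refine star hyp hy g ?_
    rwa [← h3, Subgroup.orderOf_coe, Subgroup.orderOf_coe]
  · rw [eq_top_iff, ← Subgroup.closure_closure_coe_preimage (k := s)]
    apply Subgroup.closure_mono
    rintro ⟨y, hy⟩ hys
    have hys' : y ∈ s := hys
    obtain ⟨n, hn⟩ := hsO y hys'
    exact ⟨hsV hys', n, by rwa [Subgroup.orderOf_mk]⟩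

/-- The odd order theorem, as a hypothesis. -/
def OddH : Prop := ∀ (Q : Type u) [Group Q] [Finite Q], Odd (Nat.card Q) → Group.IsSolvable Q

/-- The Baer–Suzuki theorem, as a hypothesis. -/
def BSH : Prop := ∀ (Q : Type u) [Group Q] [Finite Q] (p : ℕ) [Fact p.Prime] (X : Subgroup Q),
  IsPGroup p X → (∀ g : Q, IsPGroup p ↥(X ⊔ X.map (MulAut.conj g).toMonoidHom)) →
    ∃ N : Subgroup Q, N.Normal ∧ IsPGroup p N ∧ X ≤ N

/-- The perfect case does not occur. -/
theorem perfect_case (hOdd : OddH.{u}) (hBS : BSH.{u}) [Finite G] [Nontrivial G] {k : ℕ}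
    (hyp : Hyp G k) (hsub : ∀ H : Subgroup G, H ≠ ⊤ → Group.IsSolvable H)
    (hperf : commutator G = ⊤) : False := by
  classical
  obtain ⟨M, hMn, hsimple⟩ := exists_simple_quotient (G := G)
  let π : G →* G ⧸ M := QuotientGroup.mk' M
  have hπ : Function.Surjective π := QuotientGroup.mk'_surjective M
  have hperfQ : commutator (G ⧸ M) = ⊤ := by
    rw [eq_top_iff]
    have h1 := Subgroup.map_commutator (⊤ : Subgroup G) (⊤ : Subgroup G) π
    have h2 : (⊤ : Subgroup G).map π = ⊤ := by
      rw [← MonoidHom.range_eq_map, MonoidHom.range_eq_top]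
      exact hπ
    rw [h2] at h1
    change ⊤ ≤ ⁅(⊤ : Subgroup (G ⧸ M)), (⊤ : Subgroup (G ⧸ M))⁆
    rw [← h1]
    have h3 : ⁅(⊤ : Subgroup G), (⊤ : Subgroup G)⁆ = ⊤ := hperf
    rw [h3, h2]
  have hnotsolv : ¬ Group.IsSolvable (G ⧸ M) := by
    intro h
    exact (Group.IsSolvable.commutator_lt_top_of_nontrivial (G ⧸ M)).ne hperfQ
  have hnotcomm : ¬ ∀ a b : G ⧸ M, Commute a b := by
    intro h
    apply hnotsolv
    let _ : CommGroup (G ⧸ M) := { (inferInstance : Group (G ⧸ M)) with mul_comm := fun a b => (h a b).eq }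
    infer_instance
  have h2G : ¬ IsPGroup 2 (G ⧸ M) := by
    intro h
    have : Fact (Nat.Prime 2) := ⟨Nat.prime_two⟩
    have := h.isNilpotent
    exact hnotsolv inferInstance
  have : Fact (Nat.Prime 2) := ⟨Nat.prime_two⟩
  have hF : ¬ FrobeniusHyp 2 (G ⧸ M) := by
    intro hF
    obtain ⟨K, hKn, hKc, hKq⟩ := exists_complement (hasNormalPComplement_of_hyp hF)
    rcases IsSimpleGroup.eq_bot_or_eq_top_of_normal K hKn with rfl | rfl
    · exact h2G (hKq.of_equiv (QuotientGroup.quotientBot))
    · rw [Nat.card_congr Subgroup.topEquiv.toEquiv] at hKc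
      exact hnotsolv (hOdd _ (by rwa [← Nat.not_even_iff_odd, even_iff_two_dvd]))
  unfold FrobeniusHyp at hF
  push Not at hF
  obtain ⟨Q, hQ, h₀, hn, hc, hnc⟩ := hF
  obtain ⟨P₁, g, v, hP₁, hg, hgc, hv, hne⟩ := lifting π hπ Q hQ hn hc hnc
  have hneall := iter_ne_one π hP₁ hg hgc hv hne
  obtain ⟨t, htV, htP, hto⟩ := exists_involution_value π hP₁ hg hv hneall k
  obtain ⟨n₀, hn₀⟩ := orderOf_eq_pow_of_mem hP₁ htP
  have htsq : (π t) ^ 2 = 1 := by rw [← hto]; exact pow_orderOf_eq_one _
  have hpair : ∀ g' : G, IsPGroup 2 (closure {t, g' * t * g'⁻¹}) := by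
    intro g'
    have hne' : closure {t, g' * t * g'⁻¹} ≠ ⊤ := by
      intro htop
      have h1 : closure {π t, π (g' * t * g'⁻¹)} = ⊤ := by
        rw [← Set.image_pair, ← MonoidHom.map_closure, htop, ← MonoidHom.range_eq_map,
          MonoidHom.range_eq_top]
        exact hπ
      refine closure_pair_ne_top hnotcomm htsq ?_ h1
      rw [map_mul, map_mul, map_inv, conj_pow, htsq]
      simp
    refine isPGroup_closure_of_values hyp _ ?_ ?_ (hsub _ hne')
    · rintro y (rfl | rfl)
      · exact htV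
      · exact val_conj htV g'
    · rintro y (rfl | rfl)
      · exact ⟨n₀, hn₀⟩
      · refine ⟨n₀, ?_⟩
        rw [orderOf_conj_eq, hn₀]
  -- Baer–Suzuki in the simple quotient
  obtain ⟨N, hNn, hNp, hXN⟩ := hBS (G ⧸ M) 2 (zpowers (π t)) (by
      rw [IsPGroup.iff_card, Nat.card_zpowers, hto]
      exact ⟨1, by norm_num⟩) (by
      intro ĝ
      obtain ⟨g', rfl⟩ := hπ ĝ
      have h1 : IsPGroup 2 ((closure {t, g' * t * g'⁻¹}).map π) := (hpair g').map π
      refine h1.to_le (sup_le ?_ ?_)
      · rw [zpowers_le]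
        exact ⟨t, subset_closure (Set.mem_insert _ _), rfl⟩
      · rw [MonoidHom.map_zpowers, zpowers_le]
        refine ⟨g' * t * g'⁻¹, subset_closure (Set.mem_insert_of_mem _ rfl), ?_⟩
        simp)
  have hNt : N ≠ ⊥ := by
    rintro rfl
    have h1 : π t ∈ (⊥ : Subgroup (G ⧸ M)) := hXN (mem_zpowers _)
    rw [Subgroup.mem_bot] at h1
    rw [h1, orderOf_one] at hto
    omega
  rcases IsSimpleGroup.eq_bot_or_eq_top_of_normal N hNn with h | h
  · exact hNt h
  · subst h
    exact h2G (hNp.of_equiv Subgroup.topEquiv)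

/-- A nilpotent term of the lower central series makes the group solvable. -/
theorem solvable_of_lcs_nilpotent {k : ℕ}
    (h : Group.IsNilpotent ((⊤ : Subgroup G).lowerCentralSeries k)) : Group.IsSolvable G := by
  let N : Subgroup G := (⊤ : Subgroup G).lowerCentralSeries k
  have hNn : N.Normal := inferInstance
  have hQ : Group.IsNilpotent (G ⧸ N) := by
    rw [Subgroup.nilpotent_iff_lowerCentralSeries]
    refine ⟨k, ?_⟩
    rw [eq_bot_iff]
    refine (lcs_le_closure k).trans ?_
    rw [closure_le]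
    intro x hx
    obtain ⟨x', hx', rfl⟩ := val_lift (QuotientGroup.mk' N) (QuotientGroup.mk'_surjective N) hx
    exact (Subgroup.mem_bot).2 ((QuotientGroup.eq_one_iff x').2 (val_mem_lcs hx'))
  have hNs : Group.IsSolvable N := inferInstanceAs (Group.IsSolvable N)
  refine Group.isSolvable_of_ker_le_range N.subtype (QuotientGroup.mk' N) ?_
  rw [QuotientGroup.ker_mk', Subgroup.range_subtype]

/-- The main induction. -/
theorem main_nilpotent (hOdd : OddH.{u}) (hBS : BSH.{u}) (k : ℕ) :
    ∀ (n : ℕ) (G : Type u) [Group G] [Finite G], Nat.card G = n → Hyp G k →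
      Group.IsNilpotent ((⊤ : Subgroup G).lowerCentralSeries k) := by
  intro n
  induction n using Nat.strong_induction_on with
  | _ n ih =>
    intro G _ _ hn hyp
    have hsub : ∀ H : Subgroup G, H ≠ ⊤ → Group.IsSolvable H := by
      intro H hH
      have hlt : Nat.card H < n := by
        rw [← hn]
        have h1 : H < ⊤ := lt_top_iff_ne_top.2 hH
        have := card_lt_of_lt h1
        rwa [Nat.card_congr (Subgroup.topEquiv (G := G)).toEquiv] at this
      exact solvable_of_lcs_nilpotent (ih _ hlt H rfl (hyp.subgroup H))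
    by_cases hN : (⊤ : Subgroup G).lowerCentralSeries k = ⊤
    · cases k with
      | zero =>
        have hnil : Group.IsNilpotent G := by
          apply isNilpotent_of_frobeniusHyp
          intro p _ Q hQ g hg hc
          rw [Subgroup.mem_centralizer_iff]
          intro u hu
          have h1 : ⁅g, u⁆ ∈ Q := by
            have e : ⁅g, u⁆ = (g * u * g⁻¹) * u⁻¹ := rfl
            rw [e]
            exact mul_mem ((Subgroup.mem_normalizer_iff.1 hg _).1 hu) (inv_mem hu)
          obtain ⟨a, ha⟩ := orderOf_eq_pow_of_mem hQ h1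
          have h2 := star hyp (mem_val_zero g) u (by
            rw [ha]
            exact (hc.pow_right a).symm)
          exact (commutatorElement_eq_one_iff_commute.1 h2).eq.symm
        exact inferInstance
      | succ k =>
        have hperf : commutator G = ⊤ := by
          rw [eq_top_iff, ← hN, ← Subgroup.top_lowerCentralSeries_one]
          exact Subgroup.lowerCentralSeries_antitone _ (by omega)
        by_cases htriv : Subsingleton G
        · have : Group.IsNilpotent ((⊤ : Subgroup G).lowerCentralSeries (k + 1)) := inferInstance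
          exact this
        · rw [not_subsingleton_iff_nontrivial] at htriv
          exact (perfect_case hOdd hBS hyp hsub hperf).elim
    · have hprime : ∀ (p m : ℕ), p.Prime → ∀ y ∈ Val G k, orderOf y = p ^ m →
          y ∈ Cfsg.fittingSubgroup G := by
        intro p m hp y hy hm
        have : Fact p.Prime := ⟨hp⟩
        let s : Set G := {y | y ∈ Val G k ∧ ∃ n, orderOf y = p ^ n}
        have hsN : closure s ≤ (⊤ : Subgroup G).lowerCentralSeries k :=
          closure_le _ |>.2 fun y hy => val_mem_lcs hy.1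
        have hsne : closure s ≠ ⊤ := fun e => hN (top_le_iff.1 (e ▸ hsN))
        have hW : IsPGroup p (closure s) :=
          isPGroup_closure_of_values hyp s (fun y hy => hy.1) (fun y hy => hy.2) (hsub _ hsne)
        have hWn : (closure s).Normal := normal_closure_of_conj (by
          rintro x ⟨hx, n, hn⟩ g
          refine ⟨val_conj hx g, n, ?_⟩
          rw [orderOf_conj_eq, hn])
        have hle := Cfsg.Agent.Lib.Nilpotent.Fitting.le_pCore hW
        exact Cfsg.Agent.Lib.Nilpotent.Fitting.pCore_le_fittingSubgroup p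
          (hle (subset_closure ⟨hy, m, hm⟩))
      have hval := generation (Cfsg.fittingSubgroup G) hprime
      have hle : (⊤ : Subgroup G).lowerCentralSeries k ≤ Cfsg.fittingSubgroup G :=
        (lcs_le_closure k).trans ((closure_le _).2 hval)
      exact Cfsg.Agent.Lib.Nilpotent.Fitting.isNilpotent_of_le hle
        Cfsg.Agent.Lib.Nilpotent.Fitting.isNilpotent_fittingSubgroup

/-- **The criterion**, given the odd order and Baer–Suzuki theorems. -/
theorem nilpotent_iff (hOdd : OddH.{u}) (hBS : BSH.{u}) [Finite G] (k : ℕ) :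
    Group.IsNilpotent ↥((⊤ : Subgroup G).lowerCentralSeries k) ↔
      ∀ x y : G,
        (∃ f : Fin (k + 1) → G, x = ((List.ofFn f).tail).foldl (fun a b => a * b * a⁻¹ * b⁻¹) (f 0)) →
        (∃ f : Fin (k + 1) → G, y = ((List.ofFn f).tail).foldl (fun a b => a * b * a⁻¹ * b⁻¹) (f 0)) →
        (orderOf x).Coprime (orderOf y) →
        (∀ r : ℕ, r.Prime → r ∣ orderOf x * orderOf y → r ∣ orderOf (x * y)) ∨
          orderOf x * orderOf y ≤ orderOf (x * y) := by
  constructor
  · intro h x y hx hy hc
    right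
    have hxN : x ∈ (⊤ : Subgroup G).lowerCentralSeries k := val_mem_lcs (mem_val_iff_fold.2 hx)
    have hyN : y ∈ (⊤ : Subgroup G).lowerCentralSeries k := val_mem_lcs (mem_val_iff_fold.2 hy)
    have hcomm : Commute (⟨x, hxN⟩ : (⊤ : Subgroup G).lowerCentralSeries k) ⟨y, hyN⟩ :=
      Cfsg.Agent.Lib.Nilpotent.Elements.commute_of_coprime_orderOf (by
        rwa [Subgroup.orderOf_mk, Subgroup.orderOf_mk])
    have hc' : Commute x y := congrArg Subtype.val hcomm
    exact (hc'.orderOf_mul_eq_mul_orderOf_of_coprime hc).ge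
  · intro h
    exact main_nilpotent hOdd hBS k _ G rfl
      fun x hx y hy hc => h x y (mem_val_iff_fold.1 hx) (mem_val_iff_fold.1 hy) hc

end Cfsg.Agent.Lib.BW
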